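import Mathlib
import Cfsg.Prelude.Def_Local

/-!
# S5919, the row `PSL₂(13)`: interface (helper540)

`Q = SL₂(13)` acts on a vector space `V` over `F₃` through `PSL₂(13)` (`ρ (-1) = 1`).
`U` = the matrices `uu a`, `T ∩ D26` generated by `tt` (of order 4, `tt ^ 2 = -1`), `eta` of order 3, `ww` the Weyl element.
-/

set_option autoImplicit false

namespace Cfsg.Agent.H540.E8C.L13

universe u

/-- `SL₂(13)` -/
abbrev Q : Type := Matrix.SpecialLinearGroup (Fin 2) (ZMod 13)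

def uu (a : ZMod 13) : Q := ⟨!![1, a; 0, 1], by simp [Matrix.det_fin_two]⟩
def tt : Q := ⟨!![5, 0; 0, 8], by decide⟩
def eta : Q := ⟨!![3, 0; 0, 9], by decide⟩
def ww : Q := ⟨!![0, 1; -1, 0], by decide⟩

variable {V : Type*} [AddCommGroup V] [Module (ZMod 3) V] (ρ : Representation (ZMod 3) Q V)

/-- the vectors fixed by the elements with the property `P` -/
def fixP (P : Q → Prop) : Submodule (ZMod 3) V where
  carrier := {v | ∀ g, P g → ρ g v = v}
  add_mem' := fun ha hb g hg => by rw [map_add, ha g hg, hb g hg]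
  zero_mem' := fun g _ => map_zero _
  smul_mem' := fun c v hv g hg => by rw [map_smul, hv g hg]

/-- `e_U w` (note `13 = 1` in `F₃`) -/
def om : V →ₗ[ZMod 3] V := ∑ a : ZMod 13, ρ (uu a) ∘ₗ ρ ww

/-- `ω + 1 + η + η ^ 2`: an involution on the vectors fixed by `uu a` and `tt` -/
def sg : V →ₗ[ZMod 3] V := om ρ + LinearMap.id + ρ eta + ρ (eta * eta)

/-- the eigenspaces of `sg` on the vectors fixed by `D26` -/
def XX (ε : ZMod 3) : Submodule (ZMod 3) V where
  carrier := {v | (∀ a, ρ (uu a) v = v) ∧ ρ tt v = v ∧ sg ρ v = ε • v}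
  add_mem' := fun ha hb => ⟨fun a => by rw [map_add, ha.1 a, hb.1 a], by rw [map_add, ha.2.1, hb.2.1],
    by rw [map_add, ha.2.2, hb.2.2, smul_add]⟩
  zero_mem' := ⟨fun a => map_zero _, map_zero _, by rw [map_zero, smul_zero]⟩
  smul_mem' := fun c v hv => ⟨fun a => by rw [map_smul, hv.1 a], by rw [map_smul, hv.2.1],
    by rw [map_smul, hv.2.2, smul_comm]⟩

/-- **Task R1.** -/
def R1 : Prop := ∀ (V : Type) [AddCommGroup V] [Module (ZMod 3) V] [Module.Finite (ZMod 3) V]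
    (ρ : Representation (ZMod 3) Q V) (_ : ρ (-1) = 1)
    (B : LinearMap.BilinForm (ZMod 3) V) (_ : B.Nondegenerate) (_ : B.IsSymm)
    (_ : ∀ g v v', B (ρ g v) (ρ g v') = B v v'),
    2 * Module.finrank (ZMod 3) (XX ρ 1) ≤
      3 * Module.finrank (ZMod 3) (fixP ρ fun _ => True) + Module.finrank (ZMod 3) (XX ρ (-1))

/-- **Task GRP13.** -/
def Grp13 : Prop := ∀ (F : Type u) [Field F] [Fintype F] (_ : Fintype.card F = 13) (H : Type) [Group H] [Finite H]
    (_ : Nonempty (↥(Cfsg.generalizedFittingSubgroup H) ≃* Matrix.ProjectiveSpecialLinearGroup (Fin 2) F)),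
    ∃ φ : Q →* H, φ.range = Cfsg.generalizedFittingSubgroup H ∧ (∀ g, φ g = 1 ↔ g = 1 ∨ g = -1) ∧
      (∀ a b : H, a ∉ φ.range → b ∉ φ.range → a * b ∈ φ.range) ∧
      Nat.card ↥(Subgroup.centralizer ({φ (uu 1)} : Set H)) ≤ 13

end Cfsg.Agent.H540.E8C.L13
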