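import Mathlib
import Cfsg.Agent.H540.E8C.L13.Iface

/-!
# Computing with formal sums of translates of vectors with prescribed stabilisers in `SL₂(13)`
-/

set_option autoImplicit false
set_option linter.unusedSectionVars false
set_option linter.style.haveILetI false

namespace Cfsg.Agent.H540.E8C.L13

open Module

/-- coded matrices modulo 13 -/
structure M4 where
  a : ℕ
  b : ℕ
  c : ℕ
  d : ℕ

namespace M4

def mul (x y : M4) : M4 :=
  ⟨(x.a * y.a + x.b * y.c) % 13, (x.a * y.b + x.b * y.d) % 13, (x.c * y.a + x.d * y.c) % 13,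
    (x.c * y.b + x.d * y.d) % 13⟩

def toM (x : M4) : Matrix (Fin 2) (Fin 2) (ZMod 13) := !![(x.a : ZMod 13), (x.b : ZMod 13); (x.c : ZMod 13), (x.d : ZMod 13)]

def ok (x : M4) : Bool := Nat.beq ((x.a * x.d + 12 * (x.b * x.c)) % 13) 1

def adj (x : M4) : M4 := ⟨x.d % 13, (12 * x.b) % 13, (12 * x.c) % 13, x.a % 13⟩

theorem c13 : (13 : ZMod 13) = 0 := by decide

theorem castmod (n : ℕ) : ((n % 13 : ℕ) : ZMod 13) = (n : ZMod 13) := by
  have h := Nat.div_add_mod n 13
  conv_rhs => rw [← h]
  push_cast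
  rw [c13, zero_mul, zero_add]

theorem toM_mul (x y : M4) : (x.mul y).toM = x.toM * y.toM := by
  unfold toM mul
  ext i j
  fin_cases i <;> fin_cases j <;> simp [Matrix.mul_apply, Fin.sum_univ_two, castmod]

theorem det_of_ok {x : M4} (h : x.ok = true) : x.toM.det = 1 := by
  unfold ok at h
  have h1 := Nat.eq_of_beq_eq_true h
  have h2 := congrArg (fun n : ℕ => (n : ZMod 13)) h1
  simp only [castmod] at h2
  push_cast at h2
  unfold toM
  rw [Matrix.det_fin_two_of]
  have h3 : (12 : ZMod 13) = -1 := by decide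
  rw [h3] at h2
  linear_combination h2

theorem adj_toM (x : M4) : x.adj.toM = !![(x.d : ZMod 13), -(x.b : ZMod 13); -(x.c : ZMod 13), (x.a : ZMod 13)] := by
  have h3 : (12 : ZMod 13) = -1 := by decide
  unfold toM adj
  simp only [castmod]
  push_cast
  rw [h3, neg_one_mul, neg_one_mul]

theorem mul_adj {x : M4} (h : x.ok = true) (y : M4) : x.toM * (x.adj.mul y).toM = y.toM := by
  have h1 := det_of_ok h
  rw [toM_mul, ← Matrix.mul_assoc, adj_toM]
  have h2 : x.toM * !![(x.d : ZMod 13), -(x.b : ZMod 13); -(x.c : ZMod 13), (x.a : ZMod 13)] = 1 := by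
    unfold toM at h1 ⊢
    rw [Matrix.det_fin_two_of] at h1
    ext i j
    fin_cases i <;> fin_cases j <;> simp [Matrix.mul_apply, Fin.sum_univ_two] <;>
      first | linear_combination h1 | linear_combination -h1 | ring
  rw [h2, Matrix.one_mul]

end M4

section

variable {V : Type*} [AddCommGroup V] [Module (ZMod 3) V] (ρ : Representation (ZMod 3) Q V)

/-- the group element of a coded matrix -/
def mkQ (x : M4) (h : x.toM.det = 1) : Q := ⟨x.toM, h⟩

open Classical in
/-- the action of a coded matrix -/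
noncomputable def rM (x : M4) : V →ₗ[ZMod 3] V :=
  if h : x.toM.det = 1 then ρ (mkQ x h) else 0

theorem rM_of {x : M4} (h : x.toM.det = 1) : rM ρ x = ρ (mkQ x h) := dif_pos h

theorem rM_mul {x y z : M4} (hx : x.toM.det = 1) (h : z.toM = x.toM * y.toM) (v : V) :
    rM ρ z v = rM ρ x (rM ρ y v) := by
  by_cases hy : y.toM.det = 1
  · have hz : z.toM.det = 1 := by rw [h, Matrix.det_mul, hx, hy, one_mul]
    have h1 : mkQ z hz = mkQ x hx * mkQ y hy := Subtype.ext h
    rw [rM_of ρ hz, rM_of ρ hx, rM_of ρ hy, h1, map_mul]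
    rfl
  · have hz : ¬ z.toM.det = 1 := by rw [h, Matrix.det_mul, hx, one_mul]; exact hy
    unfold rM
    rw [dif_neg hz, dif_neg hy]
    simp

/-- terms: a basic vector, a coefficient, a group element -/
structure Tm where
  b : ℕ
  c : ℕ
  g : M4

variable (x : ℕ → V)

noncomputable def ev (t : Tm) : V := (t.c : ZMod 3) • rM ρ t.g (x t.b)

noncomputable def evL (L : List Tm) : V := (L.map (ev ρ x)).sum

theorem evL_nil : evL ρ x [] = 0 := rfl

theorem evL_cons (t : Tm) (L : List Tm) : evL ρ x (t :: L) = ev ρ x t + evL ρ x L := by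
  simp [evL]

theorem evL_append (L L' : List Tm) : evL ρ x (L ++ L') = evL ρ x L + evL ρ x L' := by
  simp [evL]

end

/-- the trace zero matrix normalised by `D14` -/
def m0 : M4 := ⟨5, 5, 5, 8⟩

/-- the character of the stabiliser of the basic vector `b`: 0 if `k` is not in the stabiliser, else 1 or 2 (= -1) -/
def kchar (b : ℕ) (k : M4) : ℕ :=
  bif Nat.blt b 3 then
    (let p := k.mul m0; let q := m0.mul k
     bif (Nat.beq p.a q.a && Nat.beq p.b q.b && Nat.beq p.c q.c && Nat.beq p.d q.d) then 1 else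
     bif (Nat.beq ((p.a + q.a) % 13) 0 && Nat.beq ((p.b + q.b) % 13) 0 && Nat.beq ((p.c + q.c) % 13) 0 &&
       Nat.beq ((p.d + q.d) % 13) 0) then 1 else 0)
  else bif Nat.beq (k.c % 13) 0 then
    (bif (Nat.beq (k.a % 13) 1 || Nat.beq (k.a % 13) 12) then 1 else
     bif (Nat.beq (k.a % 13) 5 || Nat.beq (k.a % 13) 8) then (bif Nat.beq b 3 then 2 else bif Nat.beq b 4 then 1 else 0)
      else 0)
  else 0

def eqs (b : ℕ) (g0 g : M4) : ℕ :=
  let k := g0.adj.mul g
  bif g0.ok && k.ok then kchar b k else 0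

def addT (t : Tm) : List Tm → List Tm
  | [] => [t]
  | s :: L =>
    let e := eqs s.b s.g t.g
    bif Nat.beq s.b t.b && Nat.blt 0 e then ⟨s.b, (s.c + e * t.c) % 3, s.g⟩ :: L else s :: addT t L

inductive Tr where
  | nil : Tr
  | node (L : List Tm) (l r : Tr) : Tr

def Tr.ins (k : ℕ) (t : Tm) : ℕ → Tr → Tr
  | 0, .nil => .node [t] .nil .nil
  | 0, .node L l r => .node (addT t L) l r
  | d + 1, .nil => bif Nat.beq (Nat.land (Nat.shiftRight k d) 1) 0 then .node [] (Tr.ins k t d .nil) .nil
      else .node [] .nil (Tr.ins k t d .nil)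
  | d + 1, .node L l r => bif Nat.beq (Nat.land (Nat.shiftRight k d) 1) 0 then .node L (Tr.ins k t d l) r
      else .node L l (Tr.ins k t d r)

def Tr.toL : Tr → List Tm → List Tm
  | .nil, acc => acc
  | .node L l r, acc => (L.filter fun t => !(Nat.beq (t.c % 3) 0)) ++ Tr.toL l (Tr.toL r acc)

/-- a number describing the coset -/
def key (t : Tm) : ℕ :=
  bif Nat.blt t.b 3 then
    (let p := (t.g.mul m0).mul t.g.adj
     Nat.min (p.a * 169 + p.b * 13 + p.c) ((13 - p.a) % 13 * 169 + (13 - p.b) % 13 * 13 + (13 - p.c) % 13) + 2197 * t.b)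
  else
    Nat.min (Nat.min (t.g.a * 13 + t.g.c) ((13 - t.g.a) % 13 * 13 + (13 - t.g.c) % 13))
      (Nat.min ((5 * t.g.a) % 13 * 13 + (5 * t.g.c) % 13) ((8 * t.g.a) % 13 * 13 + (8 * t.g.c) % 13)) + 2197 * t.b

def norm (L : List Tm) : List Tm := Tr.toL (L.foldl (fun T t => T.ins (key t) t 14) .nil) []

/-- the group algebra element `K` applied to a formal sum -/
def gop (K : List (ℕ × M4)) (L : List Tm) : List Tm :=
  norm (K.flatMap fun n => L.map fun t => ⟨t.b, (n.1 * t.c) % 3, n.2.mul t.g⟩)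

section

variable {V : Type*} [AddCommGroup V] [Module (ZMod 3) V] {ρ : Representation (ZMod 3) Q V} {x : ℕ → V}

/-- the hypothesis on the basic vectors -/
def Good (ρ : Representation (ZMod 3) Q V) (x : ℕ → V) : Prop :=
  ∀ (b : ℕ) (k : M4), k.toM.det = 1 → kchar b k ≠ 0 → rM ρ k (x b) = (kchar b k : ZMod 3) • x b

theorem c3 : (3 : ZMod 3) = 0 := by decide

theorem castmod3 (n : ℕ) : ((n % 3 : ℕ) : ZMod 3) = (n : ZMod 3) := by
  have h := Nat.div_add_mod n 3
  conv_rhs => rw [← h]
  push_cast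
  rw [c3, zero_mul, zero_add]

theorem eqs_spec (h : Good ρ x) {b : ℕ} {g0 g : M4} (he : eqs b g0 g ≠ 0) :
    rM ρ g (x b) = (eqs b g0 g : ZMod 3) • rM ρ g0 (x b) := by
  have he' : eqs b g0 g = bif g0.ok && (g0.adj.mul g).ok then kchar b (g0.adj.mul g) else 0 := rfl
  rw [he'] at he ⊢
  cases h1 : (g0.ok && (g0.adj.mul g).ok) with
  | false => rw [h1] at he; exact absurd rfl he
  | true =>
    rw [h1] at he
    rw [cond_true] at he ⊢
    rw [Bool.and_eq_true] at h1
    rw [rM_mul ρ (M4.det_of_ok h1.1) (M4.mul_adj h1.1 g).symm, h b _ (M4.det_of_ok h1.2) he, map_smul]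

theorem evL_addT (h : Good ρ x) (t : Tm) (L : List Tm) : evL ρ x (addT t L) = ev ρ x t + evL ρ x L := by
  induction L with
  | nil => simp [addT, evL]
  | cons s L ih =>
    unfold addT
    cases h1 : (Nat.beq s.b t.b && Nat.blt 0 (eqs s.b s.g t.g)) with
    | false =>
      show evL ρ x (bif (Nat.beq s.b t.b && Nat.blt 0 (eqs s.b s.g t.g)) then _ else _) = _
      rw [h1, cond_false, evL_cons, ih, evL_cons]
      abel
    | true =>
      show evL ρ x (bif (Nat.beq s.b t.b && Nat.blt 0 (eqs s.b s.g t.g)) then _ else _) = _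
      rw [h1, cond_true, evL_cons, evL_cons, ← add_assoc]
      congr 1
      rw [Bool.and_eq_true] at h1
      have h2 := Nat.eq_of_beq_eq_true h1.1
      have h3 : 0 < eqs s.b s.g t.g := by
        have := h1.2
        rw [Nat.blt_eq] at this
        exact this
      have h4 := eqs_spec h h3.ne'
      show (((s.c + eqs s.b s.g t.g * t.c) % 3 : ℕ) : ZMod 3) • rM ρ s.g (x s.b) = _
      unfold ev
      rw [castmod3, ← h2, h4, smul_smul, ← add_smul]
      congr 1
      push_cast
      ring

noncomputable def evT (ρ : Representation (ZMod 3) Q V) (x : ℕ → V) : Tr → V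
  | .nil => 0
  | .node L l r => evL ρ x L + evT ρ x l + evT ρ x r

theorem evT_ins (h : Good ρ x) (k : ℕ) (t : Tm) : ∀ (d : ℕ) (T : Tr),
    evT ρ x (Tr.ins k t d T) = ev ρ x t + evT ρ x T
  | 0, .nil => by simp [Tr.ins, evT, evL]
  | 0, .node L l r => by
    simp only [Tr.ins, evT, evL_addT h]
    abel
  | d + 1, .nil => by
    rw [Tr.ins]
    cases Nat.beq (Nat.land (Nat.shiftRight k d) 1) 0 with
    | false => simp [evT, evT_ins h k t d, evL]
    | true => simp [evT, evT_ins h k t d, evL]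
  | d + 1, .node L l r => by
    rw [Tr.ins]
    cases Nat.beq (Nat.land (Nat.shiftRight k d) 1) 0 with
    | false => simp only [cond_false, evT, evT_ins h k t d]; abel
    | true => simp only [cond_true, evT, evT_ins h k t d]; abel

theorem evL_filter (L : List Tm) : evL ρ x (L.filter fun t => !(Nat.beq (t.c % 3) 0)) = evL ρ x L := by
  induction L with
  | nil => rfl
  | cons t L ih =>
    rw [List.filter_cons, evL_cons]
    split_ifs with h1
    · rw [evL_cons, ih]
    · rw [ih]
      have h2 : Nat.beq (t.c % 3) 0 = true := by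
        cases h3 : Nat.beq (t.c % 3) 0 with
        | true => rfl
        | false => rw [h3] at h1; exact absurd rfl h1
      have h3 := Nat.eq_of_beq_eq_true h2
      have h4 : (t.c : ZMod 3) = 0 := by rw [← castmod3, h3, Nat.cast_zero]
      rw [ev, h4, zero_smul, zero_add]

theorem evL_toL : ∀ (T : Tr) (acc : List Tm), evL ρ x (T.toL acc) = evT ρ x T + evL ρ x acc
  | .nil, acc => by simp [Tr.toL, evT]
  | .node L l r, acc => by
    rw [Tr.toL, evL_append, evL_filter, evL_toL l, evL_toL r, evT]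
    abel

theorem evL_norm (h : Good ρ x) (L : List Tm) : evL ρ x (norm L) = evL ρ x L := by
  have h1 : ∀ (L : List Tm) (T : Tr), evT ρ x (L.foldl (fun T t => T.ins (key t) t 14) T) = evT ρ x T + evL ρ x L := by
    intro L
    induction L with
    | nil => intro T; simp [evL]
    | cons t L ih =>
      intro T
      rw [List.foldl_cons, ih, evT_ins h, evL_cons]
      abel
  unfold norm
  rw [evL_toL, h1]
  simp [evT, evL]

/-- the operator of a group algebra element -/
noncomputable def opK (ρ : Representation (ZMod 3) Q V) (K : List (ℕ × M4)) : V →ₗ[ZMod 3] V :=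
  (K.map fun n => (n.1 : ZMod 3) • rM ρ n.2).sum

theorem opK_cons (n : ℕ × M4) (K : List (ℕ × M4)) (v : V) :
    opK ρ (n :: K) v = (n.1 : ZMod 3) • rM ρ n.2 v + opK ρ K v := by
  simp [opK]

theorem evL_raw (K : List (ℕ × M4)) (hK : K.all (fun n => n.2.ok) = true) (L : List Tm) :
    evL ρ x (K.flatMap fun n => L.map fun t => ⟨t.b, (n.1 * t.c) % 3, n.2.mul t.g⟩) = opK ρ K (evL ρ x L) := by
  have hcore : ∀ (n : ℕ × M4), n.2.ok = true → ∀ L : List Tm,
      evL ρ x (L.map fun t => (⟨t.b, (n.1 * t.c) % 3, n.2.mul t.g⟩ : Tm)) = (n.1 : ZMod 3) • rM ρ n.2 (evL ρ x L) := by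
    intro n hn L
    induction L with
    | nil => simp [evL]
    | cons t L ih2 =>
      rw [List.map_cons, evL_cons, evL_cons, ih2, map_add, smul_add]
      congr 1
      unfold ev
      show (((n.1 * t.c) % 3 : ℕ) : ZMod 3) • rM ρ (n.2.mul t.g) (x t.b) = _
      rw [castmod3, rM_mul ρ (M4.det_of_ok hn) (M4.toM_mul _ _), map_smul, smul_smul]
      push_cast
      rfl
  induction K with
  | nil => simp [opK, evL]
  | cons n K ih =>
    rw [List.all_cons, Bool.and_eq_true] at hK
    rw [List.flatMap_cons, evL_append, ih hK.2, opK_cons, hcore n hK.1]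

theorem evL_gop (h : Good ρ x) {K : List (ℕ × M4)} (hK : K.all (fun n => n.2.ok) = true) (L : List Tm) :
    evL ρ x (gop K L) = opK ρ K (evL ρ x L) := by
  unfold gop
  rw [evL_norm h, evL_raw K hK]

end

end Cfsg.Agent.H540.E8C.L13
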